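import Cfsg.Agent.H19.Cm0
import Cfsg.Agent.S0058

/-!
Part (2) of the 3-local characterization of `A₈` (namespace `H25.Cm`): `gen`, `oc`.
-/

set_option autoImplicit false
set_option synthInstance.maxSize 4000
set_option maxRecDepth 100000
set_option linter.unusedSectionVars false

namespace H25.Cm
open Equiv Subgroup H19.Cm

/-- conjugation by `Z'` -/
def cz (x : L) : L := Z' * x * Z'⁻¹

theorem dz : ∀ x : L, x * Z = Z * x → x = 1 ∨ ((x = A ∨ cz x = A ∨ cz (cz x) = A) ∧ (x = A ∨ x = A' ∨ x = A * A')) ∨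
    ((x = A8 ∨ cz x = A8 ∨ cz (cz x) = A8) ∧ (x = A8 ∨ x = A8' ∨ x = A8 * A8')) ∨
    (x ^ 10 ≠ 1 ∧ (x ^ 10) ^ 3 = 1) ∨ (x * cz x ≠ 1 ∧ (x * cz x) ^ 3 = 1) ∨ (x * x * cz x ≠ 1 ∧ (x * x * cz x) ^ 3 = 1) ∨
    (x * cz x * x * cz (cz x) ≠ 1 ∧ (x * cz x * x * cz (cz x)) ^ 3 = 1) := by decide +kernel

theorem dd : ∀ x : L, x * Z = Z * x → x * Z' = Z' * x → x ^ 3 = 1 ∧
    (U * x * U⁻¹ * Z = Z * (U * x * U⁻¹) ∧ U * x * U⁻¹ * Z' = Z' * (U * x * U⁻¹)) ∧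
    (x = 1 ∨ (x = Z ∨ x⁻¹ = Z) ∨ (x = Z' ∨ x⁻¹ = Z') ∨ (x = Z * Z' ∨ x⁻¹ = Z * Z') ∨
      (x = U * (Z * Z') * U⁻¹ ∨ x⁻¹ = U * (Z * Z') * U⁻¹)) ∧
    (x = 1 ∨ x = Z ∨ x⁻¹ = Z ∨ x * (U * x⁻¹ * U⁻¹) = Z' ∨ (x * (U * x⁻¹ * U⁻¹))⁻¹ = Z') := by decide +kernel

theorem df : A * A8 ≠ 1 ∧ (A * A8) ^ 3 = 1 ∧ U * A * U⁻¹ = A8 ∧ U * A8 * U⁻¹ = A ∧ Z' * (A * Z'⁻¹ * A⁻¹) ≠ 1 ∧
    (Z' * (A * Z'⁻¹ * A⁻¹)) ^ 2 = 1 := by decide +kernel

theorem key {M X : Subgroup L} (n3 : ∀ g ∈ M, g ^ 3 = 1 → g = 1) (hn : ∀ g ∈ M, cz g ∈ M) (h7 : A ∈ M → A ∈ X ∧ A' ∈ X)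
    (h8 : A8 ∈ M → A8 ∈ X ∧ A8' ∈ X) {x : L} (c : x * Z = Z * x) (hx : x ∈ M) : x ∈ X := by
  have x1 := hn x hx
  have x2 := hn _ x1
  rcases dz x c with r | ⟨r, t⟩ | ⟨r, t⟩ | r | r | r | r
  · exact r ▸ X.one_mem
  · obtain ⟨a, b⟩ := h7 (by rcases r with r | r | r; exacts [r ▸ hx, r ▸ x1, r ▸ x2])
    rcases t with t | t | t <;> rw [t]
    exacts [a, b, mul_mem a b]
  · obtain ⟨a, b⟩ := h8 (by rcases r with r | r | r; exacts [r ▸ hx, r ▸ x1, r ▸ x2])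
    rcases t with t | t | t <;> rw [t]
    exacts [a, b, mul_mem a b]
  · exact (r.1 (n3 _ (pow_mem hx _) r.2)).elim
  · exact (r.1 (n3 _ (mul_mem hx x1) r.2)).elim
  · exact (r.1 (n3 _ (mul_mem (mul_mem hx hx) x1) r.2)).elim
  · exact (r.1 (n3 _ (mul_mem (mul_mem (mul_mem hx x1) hx) x2) r.2)).elim

variable {G : Type*} [Group G] [Finite G] {f : L →* G} {s : G}

theorem no3 {M : Subgroup G} (c : (Nat.card M).Coprime 3) {g : G} (hg : g ∈ M) (e : g ^ 3 = 1) : g = 1 :=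
  orderOf_eq_one_iff.1 (Nat.eq_one_of_dvd_coprimes c (orderOf_dvd_natCard M hg) (orderOf_dvd_of_pow_eq_one e))

omit [Finite G] in
theorem memD {g : G} (hg : g ∈ D f) : ∃ x, f x = g ∧ x * Z = Z * x ∧ x * Z' = Z' * x := by
  obtain ⟨i, j, rfl⟩ := mem_D.1 hg
  have c : Commute Z Z' := zz.1
  exact ⟨_, rfl, (((Commute.refl Z).pow_left i).mul_left (c.symm.pow_left j)).eq,
    ((c.pow_left i).mul_left ((Commute.refl Z').pow_left j)).eq⟩

omit [Finite G] in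
theorem cubeD {g : G} (hg : g ∈ D f) : g ^ 3 = 1 := by
  obtain ⟨x, rfl, a, b⟩ := memD hg
  rw [← map_pow, (dd x a b).1, map_one]

omit [Finite G] in
theorem zD : f Z ∈ D f ∧ f Z' ∈ D f := ⟨subset_closure (by simp), subset_closure (by simp)⟩

theorem uN (h : Hy f s) : f U ∈ normalizer (D f : Set G) := mem_normalizer_fintype fun n hn => by
  obtain ⟨x, rfl, a, b⟩ := memD hn
  obtain ⟨-, ⟨c, d⟩, -⟩ := dd x a b
  rw [← map_inv, ← map_mul, ← map_mul]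
  exact h.cD' (by rw [← map_mul, c, map_mul]) (by rw [← map_mul, d, map_mul])

omit [Finite G] in
theorem commD : IsMulCommutative (D f) := ⟨⟨fun a b => Subtype.ext (by
  obtain ⟨i, j, e⟩ := mem_D.1 a.2
  obtain ⟨k, l, e'⟩ := mem_D.1 b.2
  have c : Commute Z Z' := zz.1
  have : Commute (Z ^ i * Z' ^ j) (Z ^ k * Z' ^ l) :=
    (((Commute.refl Z).pow_pow i k).mul_right (c.pow_pow i l)).mul_left
      ((c.symm.pow_pow j k).mul_right ((Commute.refl Z').pow_pow j l))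
  rw [coe_mul, coe_mul, e, e', ← map_mul, this.eq, map_mul])⟩⟩

theorem ncD (h : Hy f s) : ¬ IsCyclic (D f) := fun c => by
  obtain ⟨g, hg⟩ := c.exists_ofOrder_eq_natCard
  have : orderOf g ∣ 3 := orderOf_dvd_of_pow_eq_one (Subtype.ext (cubeD g.2))
  rw [hg, h.cD] at this
  exact absurd this (by decide)

theorem gen (h : Hy f s) : Gen f s := fun M c hn => by
  have n3 : ∀ g ∈ M, g ^ 3 = 1 → g = 1 := fun g => no3 c
  have ss : ∀ x : L, s * f x * s = (MulAut.conj s).toMonoidHom.comp f x := fun x => by simp [h.si']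
  have i2 : Function.Injective ((MulAut.conj s).toMonoidHom.comp f) := (MulAut.conj s).injective.comp h.inj
  have t1 : ∀ φ : L →* G, Function.Injective φ → ¬ (φ A ∈ M ∧ φ A8 ∈ M) := fun φ i r =>
    df.1 (i ((n3 _ (by rw [map_mul]; exact mul_mem r.1 r.2) (by rw [← map_pow, df.2.1, map_one])).trans (map_one φ).symm))
  have t2 : ∀ φ : L →* G, Function.Injective φ → φ Z' ∈ D f → ∀ X : Subgroup G, (φ A ∈ M → φ A ∈ X ∧ φ A' ∈ X) →
      (φ A8 ∈ M → φ A8 ∈ X ∧ φ A8' ∈ X) → ∀ x, x * Z = Z * x → φ x ∈ M → φ x ∈ X := fun φ i d X a b x e hx =>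
    key (M := M.comap φ) (X := X.comap φ) (fun g hg r => i ((n3 _ hg (by rw [← map_pow, r, map_one])).trans (map_one φ).symm))
      (fun g hg => by
        rw [mem_comap, cz, map_mul, map_mul, map_inv]
        exact (mem_normalizer_iff.1 (hn d) _).1 hg) a b e hx
  have t3 : ∀ g ∈ M, g ∈ normalizer (D f : Set G) → g = 1 := fun g hg n => by
    have k : ∀ d ∈ D f, g * d = d * g := fun d hd => by
      have := n3 (g * d * g⁻¹ * d⁻¹) (by
        rw [mul_assoc, mul_assoc, ← mul_assoc d]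
        exact mul_mem hg ((mem_normalizer_iff.1 (hn hd) _).1 (inv_mem hg)))
        (cubeD (mul_mem ((mem_normalizer_iff.1 n _).1 hd) (inv_mem hd)))
      rw [mul_inv_eq_one, mul_inv_eq_iff_eq_mul] at this
      exact this
    exact n3 g hg (cubeD (h.cD' (k _ zD.1) (k _ zD.2)))
  refine ⟨t1 f h.inj, by rw [ss, ss]; exact t1 _ i2, fun X a b a' b' => ?_⟩
  have := commD (f := f)
  rw [← Cfsg.Agent.S0058.result (D f) M (ncD h) hn (by rw [h.cD]; exact (c.symm.pow_left 2 :))]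
  refine iSup₂_le ?_
  rintro _ ⟨hd, d1⟩ g ⟨hg, e⟩
  obtain ⟨x, rfl, c1, c2⟩ := memD hd
  have e1 : Commute g (f x) := mem_centralizer_singleton_iff.1 e
  have e2 : ∀ {y}, x = y ∨ x⁻¹ = y → g * f y = f y * g := by
    rintro y (rfl | rfl)
    exacts [e1.eq, by rw [map_inv]; exact e1.inv_right.eq]
  rcases (dd x c1 c2).2.2.1 with r | r | r | r | r
  · exact (d1 (by rw [r, map_one])).elim
  · obtain ⟨y, rfl, y1⟩ := h.cz (e2 r)
    exact t2 f h.inj zD.2 X a b y y1 hg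
  · obtain ⟨y, rfl, y1⟩ := h.cz' (e2 r)
    simp only [ss] at a' b' hg ⊢
    exact t2 _ i2 (by rw [← ss, h.sz']; exact zD.1) X a' b' y y1 hg
  · rw [t3 g hg (h.hy g (e2 r))]; exact X.one_mem
  · have q := e2 r
    have : (f U)⁻¹ * g * f U ∈ normalizer (D f : Set G) := h.hy _ (by
      rw [map_mul, map_mul, map_inv] at q
      calc _ = (f U)⁻¹ * (g * (f U * f (Z * Z') * (f U)⁻¹)) * f U := by group
        _ = _ := by rw [q]; group)
    rw [t3 g hg (by simpa [mul_assoc] using mul_mem (mul_mem (uN h) this) (inv_mem (uN h)))]; exact X.one_mem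

theorem oc (h : Hy f s) : Oc G := fun M n hM => by
  have : Fact (Nat.Prime 3) := ⟨by decide⟩
  have : Fact (Nat.Prime 2) := ⟨by decide⟩
  have cj : ∀ g x : L, f x ∈ M → f (g * x * g⁻¹) ∈ M := fun g x hx => by
    rw [map_mul, map_mul, map_inv]; exact n.conj_mem _ hx _
  have sc : ∀ x, s * x * s ∈ M → x ∈ M := fun x hx => by
    have := n.conj_mem _ hx s⁻¹
    rwa [inv_inv, h.si', show s * (s * x * s) * s = s * s * x * (s * s) by group, h.s2, one_mul, mul_one] at this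
  by_cases c : (Nat.card M).Coprime 3
  · obtain ⟨a, -, b⟩ := gen h M c (by rw [normalizer_eq_top]; exact le_top)
    have a1 : f A ∉ M := fun r => a ⟨r, df.2.2.1 ▸ cj U A r⟩
    have a2 : f A8 ∉ M := fun r => a1 (df.2.2.2.1 ▸ cj U A8 r)
    exact le_bot_iff.1 (b ⊥ (fun r => (a1 r).elim) (fun r => (a2 r).elim) (fun r => (a1 (sc _ r)).elim) fun r => (a2 (sc _ r)).elim)
  have o : Odd (Nat.card M) := hM.resolve_right fun r => by
    obtain ⟨k, hk⟩ := r.exists_card_eq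
    exact c (by rw [hk]; exact Nat.Coprime.pow_left k (by decide))
  exfalso
  obtain ⟨g, hg⟩ := exists_prime_orderOf_dvd_card' (G := M) 3
    (by_contra fun r => c ((Nat.Prime.coprime_iff_not_dvd (by decide)).2 r).symm)
  obtain ⟨P, hP⟩ := h.syl
  have p3 : IsPGroup 3 (zpowers (g : G)) := IsPGroup.of_card (n := 1) (by rw [Nat.card_zpowers, orderOf_coe, hg]; rfl)
  obtain ⟨Q, hQ⟩ := p3.exists_le_sylow
  obtain ⟨k, rfl⟩ := MulAction.exists_smul_eq G P Q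
  have m : k⁻¹ * g * k ∈ D f := by
    have := hQ (mem_zpowers _)
    rw [Sylow.coe_subgroup_smul, mem_pointwise_smul_iff_inv_smul_mem, hP] at this
    simpa using this
  obtain ⟨x, e, c1, c2⟩ := memD m
  have hx : f x ∈ M := e ▸ (by simpa using n.conj_mem _ g.2 k⁻¹)
  have z1 : f Z ∈ M → f Z' ∈ M := fun r => sc _ (h.sz'.symm ▸ r)
  have w : f (x * (U * x⁻¹ * U⁻¹)) ∈ M := by rw [map_mul]; exact mul_mem hx (cj _ _ (by rw [map_inv]; exact inv_mem hx))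
  have z : f Z' ∈ M := by
    rcases (dd x c1 c2).2.2.2 with r | r | r | r | r
    · rw [r, map_one, eq_comm, mul_assoc, inv_mul_eq_one, eq_comm, mul_eq_right] at e
      rw [show g = 1 from Subtype.ext e, orderOf_one] at hg
      exact absurd hg (by decide)
    exacts [z1 (r ▸ hx), z1 (by rw [← r, map_inv]; exact inv_mem hx), r ▸ w, by rw [← r, map_inv]; exact inv_mem w]
  have v : f (Z' * (A * Z'⁻¹ * A⁻¹)) ∈ M := by rw [map_mul]; exact mul_mem z (cj _ _ (by rw [map_inv]; exact inv_mem z))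
  have d := orderOf_dvd_natCard M v
  rw [orderOf_eq_prime (p := 2) (by rw [← map_pow, df.2.2.2.2.2, map_one])
    fun r => df.2.2.2.2.1 (h.inj (r.trans (map_one f).symm))] at d
  exact o.not_two_dvd_nat d

end H25.Cm
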