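import Cfsg.Agent.H06.PT1
import Cfsg.Agent.H06.FV5
import Cfsg.Agent.S3765

/-!
# Part A of the S1917 cluster (helper25): `gls`, `r1`
-/

set_option autoImplicit false
open Cfsg BG Subgroup
open scoped commutatorElement
universe u
namespace H25.Pt
open Cfsg.Agent.H06.PT
open Cfsg.Agent.H06.FV (cmap map_norm)

structure G0 {Γ : Type u} [Group Γ] (s t r : ℕ) (V D B : Subgroup Γ) : Prop where
  sp : s.Prime
  tp : t.Prime
  rp : r.Prime
  st : s ≠ t
  sr : s ≠ r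
  tr : t ≠ r
  pV : IsPGroup s V
  pD : IsPGroup t D
  cB : Nat.card B = r
  BV : B ≤ N_(V)
  BD : B ≤ N_(D)
  DV : D ≤ N_(V)
  DB : ⁅D, B⁆ = D
  t2 : t = 2 → D ⊓ C_(B) = ⊥
  VD : ⁅V, D⁆ = V

variable {Γ Γ' : Type u} [Group Γ] [Finite Γ] [Group Γ'] [Finite Γ'] {s t r q : ℕ} {V D B K L R H X : Subgroup Γ}

omit [Finite Γ] in
theorem mp {K Y : Subgroup Γ} (hK : K ≤ Y) : (K.subgroupOf Y).map Y.subtype = K := map_subgroupOf_eq_of_le hK

omit [Finite Γ] in
theorem sub_comm {A B Y : Subgroup Γ} (hA : A ≤ Y) (hB : B ≤ Y) (h : ⁅A, B⁆ = A) : ⁅A.subgroupOf Y, B.subgroupOf Y⁆ = A.subgroupOf Y :=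
  map_injective Y.subtype_injective (by simp only [map_commutator, mp hA, mp hB, h])

omit [Finite Γ] in
theorem sub_norm {A B : Subgroup Γ} (Y : Subgroup Γ) (h : A ≤ N_(B)) : A.subgroupOf Y ≤ N_(B.subgroupOf Y) :=
  le_norm_iff.2 fun _ ha _ hk => conj_mem_of_norm (K := B) (h ha) hk

omit [Finite Γ] in
theorem sub_inf (A B Y : Subgroup Γ) : (A ⊓ B).subgroupOf Y = A.subgroupOf Y ⊓ B.subgroupOf Y := rfl

omit [Finite Γ] in
theorem sub_card {A Y : Subgroup Γ} (h : A ≤ Y) : Nat.card (A.subgroupOf Y) = Nat.card A := by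
  rw [← card_map_of_injective Y.subtype_injective, mp h]

omit [Finite Γ] in
theorem sub_cent {A Y : Subgroup Γ} (h : A ≤ Y) : C_(A.subgroupOf Y) = (C_(A)).subgroupOf Y := by
  ext x
  exact ⟨fun k => mem_cent.2 fun a ha => congrArg Subtype.val (mem_cent.1 k ⟨a, h ha⟩ ha),
    fun k => mem_cent.2 fun a ha => Subtype.ext (mem_cent.1 (show x.1 ∈ C_(A) from k) a ha)⟩

omit [Finite Γ] [Finite Γ'] in
theorem map_cent (A : Subgroup Γ) (f : Γ →* Γ') : (C_(A)).map f ≤ C_(A.map f) := by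
  rintro _ ⟨x, hx, rfl⟩
  refine mem_cent.2 ?_
  rintro _ ⟨a, ha, rfl⟩
  rw [← map_mul, ← map_mul, mem_cent.1 hx a ha]

omit [Finite Γ] [Finite Γ'] in
theorem card_map_prime (hr : r.Prime) (h : Nat.card B = r) (f : Γ →* Γ') (h0 : B.map f ≠ ⊥) : Nat.card (B.map f) = r :=
  ((Nat.dvd_prime hr).1 (h ▸ card_map_dvd B f)).resolve_left fun e => h0 (BG.card_eq_one.1 e)

omit [Finite Γ] in
theorem normal_of (h : ⊤ ≤ N_(K)) : K.Normal := normalizer_eq_top_iff.1 (top_le_iff.1 h)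

namespace G0
variable (h : G0 s t r V D B)
include h

omit [Finite Γ] in
theorem pB : IsPGroup r B := pg_of_card_eq h.cB

omit [Finite Γ] in
theorem D0 (h0 : V ≠ ⊥) : D ≠ ⊥ := fun e => h0 (by rw [← h.VD, e, commutator_bot_right])

theorem cBV : (Nat.card B).Coprime (Nat.card V) := pg_coprime_ne h.rp h.sp h.pB h.pV h.sr.symm

theorem map (f : Γ →* Γ') (h0 : V.map f ≠ ⊥) : G0 s t r (V.map f) (D.map f) (B.map f) := by
  have VD : ⁅V.map f, D.map f⁆ = V.map f := by rw [← map_commutator, h.VD]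
  have DB : ⁅D.map f, B.map f⁆ = D.map f := by rw [← map_commutator, h.DB]
  refine ⟨h.sp, h.tp, h.rp, h.st, h.sr, h.tr, h.pV.map f, h.pD.map f, card_map_prime h.rp h.cB f fun e => h0 ?_, map_norm h.BV f,
    map_norm h.BD f, map_norm h.DV f, DB, fun e => eq_bot_iff.2 ?_, VD⟩
  · rw [← VD, ← DB, e, commutator_bot_right, commutator_bot_right]
  · have := cmap h.BD (pg_coprime_ne h.rp h.tp h.pB h.pD h.tr.symm) (.inr (pg_sol h.tp h.pD)) f
    rwa [h.t2 e, Subgroup.map_bot] at this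

omit [Finite Γ] in
theorem sub (h1 : V ≤ L) (h2 : D ≤ L) (h3 : B ≤ L) : G0 s t r (V.subgroupOf L) (D.subgroupOf L) (B.subgroupOf L) :=
  ⟨h.sp, h.tp, h.rp, h.st, h.sr, h.tr, h.pV.comap_subtype, h.pD.comap_subtype, (sub_card h3).trans h.cB, sub_norm L h.BV, sub_norm L h.BD,
    sub_norm L h.DV, sub_comm h2 h3 h.DB, fun e => by
      rw [sub_cent h3, ← sub_inf, h.t2 e, bot_subgroupOf], sub_comm h1 h2 h.VD⟩

theorem core2 (ea : IsElementaryAbelian s V) (h0 : V ≠ ⊥) (ff : (D ⊔ B) ⊓ C_(V) = ⊥) : V ⊓ C_(B) ≠ ⊥ := by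
  have key : ∀ Q ≤ D, B ≤ N_(Q) → ¬ Q ≤ C_(B) → (t = 2 → IsMulCommutative Q) → V ⊓ C_(B) ≠ ⊥ := fun Q h1 h2 h3 h4 =>
    Agent.S3765.result h.sp h.tp h.rp h.st h.sr h.tr B Q V h.cB (pg_le h.pD h1) h2
      (inf_eq_bot_of_prime (h.cB ▸ h.rp) fun e => h3 (cent_symm e)) ea h0 h.BV (h1.trans h.DV)
      (eq_bot_mono ff (inf_le_inf_right _ (sup_le le_sup_right (h1.trans le_sup_left)))) fun e _ => h4 e
  by_cases e : t = 2
  · exact key (D ⊓ C_(D)) inf_le_left (norm_inf h.BD (norm_cent h.BD))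
      (fun k => pg_center_ne_bot h.tp h.pD (h.D0 h0) (eq_bot_mono (h.t2 e) (le_inf inf_le_left k))) fun _ => abelian_center D
  · exact key D le_rfl h.BD (fun k => h.D0 h0 (h.DB.symm.trans (comm_eq_bot.2 k))) fun k => absurd k e

theorem core1 (ea : IsElementaryAbelian s V) (h0 : V ≠ ⊥) (top : V ⊔ (D ⊔ B) = ⊤) : V ⊓ C_(B) ≠ ⊥ := by
  have nV : D ⊔ B ≤ N_(V) := sup_le h.DV h.BV
  have dj : V ⊓ (D ⊔ B) = ⊥ := pg_inf_eq_bot h.sp h.pV (not_dvd_sup h.sp (pg_not_dvd h.sp h.tp h.pD h.st)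
    (pg_not_dvd h.sp h.rp h.pB h.sr) h.BD)
  have nM : ((D ⊔ B) ⊓ C_(V)).Normal := normal_of (top ▸ sup_le (le_norm_of_cent (cent_symm inf_le_right)) (le_norm_inf_cent nV))
  set f := QuotientGroup.mk' ((D ⊔ B) ⊓ C_(V))
  have kf : f.ker = (D ⊔ B) ⊓ C_(V) := QuotientGroup.ker_mk' _
  have h1 : V.map f ≠ ⊥ := fun e => h0 (eq_bot_mono dj (le_inf le_rfl ((((Subgroup.map_eq_bot_iff _).1 e).trans kf.le).trans inf_le_left)))
  intro e
  refine (h.map f h1).core2 ⟨?_, ?_⟩ h1 (eq_bot_iff.2 ?_) (eq_bot_iff.2 ?_)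
  · haveI := ea.1; infer_instance
  · rintro _ ⟨a, ha, rfl⟩; rw [← map_pow, ea.2 a ha, map_one]
  · rw [← Subgroup.map_sup]
    rintro _ ⟨⟨x, hx, rfl⟩, k⟩
    refine mem_bot.2 (kf.ge (show x ∈ _ from ⟨hx, mem_cent.2 fun v hv => ?_⟩))
    have k1 := mem_cent.1 k _ (mem_map_of_mem f hv)
    have k2 : x * v * x⁻¹ * v⁻¹ ∈ f.ker := by
      rw [MonoidHom.mem_ker]; simp only [map_mul, map_inv]; rw [← k1]; group
    have k3 := eq_one_of_mem_of_disj dj (V.mul_mem (conj_mem_of_norm (nV hx) hv) (V.inv_mem hv)) (kf.le k2).1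
    calc v * x = (x * v * x⁻¹ * v⁻¹) * (v * x) := by rw [k3, one_mul]
      _ = x * v := by group
  · have := cmap h.BV h.cBV (.inr (pg_sol h.sp h.pV)) f
    rwa [e, Subgroup.map_bot] at this

theorem core0 (top : V ⊔ (D ⊔ B) = ⊤) (BK : B ≤ N_(K)) (DK : D ≤ K) (hc : V ⊓ C_(B) ≤ (V ⊓ K) ⊔ (V ⊓ C_(D))) : V ≤ K := by
  have NV : frattiniOf V ⊔ (V ⊓ K) ≤ V := sup_le (phi_le V) inf_le_left
  have nM : (frattiniOf V ⊔ (V ⊓ K)).Normal := normal_of (top ▸ sup_le (le_norm_of_der_le ((der_le_phi h.sp h.pV).trans le_sup_left) NV)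
    (sup_le (norm_sup (norm_phi h.DV) (norm_inf h.DV (norm_of_le DK))) (norm_sup (norm_phi h.BV) (norm_inf h.BV BK))))
  set f := QuotientGroup.mk' (frattiniOf V ⊔ (V ⊓ K))
  have kf : f.ker = frattiniOf V ⊔ (V ⊓ K) := QuotientGroup.ker_mk' _
  by_contra e
  have h1 : V.map f ≠ ⊥ := fun k => e ((eq_of_le_sup_phi (K := V ⊓ K) inf_le_left
    ((((Subgroup.map_eq_bot_iff _).1 k).trans kf.le).trans (sup_comm _ _).le)).ge.trans inf_le_right)
  have ab : IsMulCommutative (V.map f) := abelian_iff_der.2 (by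
    rw [← map_commutator, Subgroup.map_eq_bot_iff, kf]; exact (der_le_phi h.sp h.pV).trans le_sup_left)
  have h' := h.map f h1
  refine h'.core1 ⟨ab, ?_⟩ h1 ?_ (eq_bot_iff.2 ?_)
  · rintro _ ⟨a, ha, rfl⟩
    rw [← map_pow]
    exact kf.ge (mem_sup_left (pow_mem_phi h.sp h.pV ha))
  · rw [← Subgroup.map_sup, ← Subgroup.map_sup, top, map_top_of_surjective _ (QuotientGroup.mk'_surjective _)]
  · refine (cmap h.BV h.cBV (.inr (pg_sol h.sp h.pV)) f).trans ((map_mono hc).trans ?_)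
    have d := (coprime_abelian_dprod h'.DV (pg_coprime_ne h.tp h.sp h'.pD h'.pV h.st.symm) ab).disj
    rw [h'.VD, inf_eq_left.2 inf_le_left] at d
    rw [Subgroup.map_sup, (Subgroup.map_eq_bot_iff _).2 (le_sup_right.trans kf.ge), bot_sup_eq, ← d]
    exact le_inf (map_mono inf_le_left) ((map_mono inf_le_right).trans (map_cent D f))

end G0

theorem gls : GLS.{u} := by
  intro Γ _ _ s t r V D B K a1 a2 a3 a4 a5 a6 a7 a8 a9 b1 b2 b3 b4 b5 b6 BK DK hc
  have h : G0 s t r V D B := ⟨a1, a2, a3, a4, a5, a6, a7, a8, a9, b1, b2, b3, b4, b5, b6⟩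
  have h1 : V ≤ V ⊔ (D ⊔ B) := le_sup_left
  have h2 : D ≤ V ⊔ (D ⊔ B) := le_sup_left.trans le_sup_right
  have h3 : B ≤ V ⊔ (D ⊔ B) := le_sup_right.trans le_sup_right
  generalize hL : V ⊔ (D ⊔ B) = L at h1 h2 h3
  have := (h.sub h1 h2 h3).core0 (K := K.subgroupOf L) (map_injective L.subtype_injective (by
    rw [Subgroup.map_sup, Subgroup.map_sup, mp h1, mp h2, mp h3, hL, ← MonoidHom.range_eq_map, range_subtype]))
    (sub_norm L BK) (comap_mono DK) (by
      rw [sub_cent h3, sub_cent h2, ← sub_inf, ← sub_inf, ← sub_inf,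
        ← subgroupOf_sup (inf_le_left.trans h1) (inf_le_left.trans h1)]
      exact comap_mono hc)
  exact fun v hv => this (show (⟨v, h1 hv⟩ : L) ∈ V.subgroupOf L from hv)

theorem r1base (h : St r R H) (cR : Nat.card R = r) (hs : Group.IsSolvable H) (hq : q.Prime) (hX : X ≤ H) (pX : IsPGroup q X)
    (nX : R ≤ N_(X)) (h0 : piCoreOf {q} H = ⊥) : ⁅X, R⁆ = ⊥ := by
  have DX : ⁅X, R⁆ ≤ X := comm_le_left nX
  have DR := h.cc hX nX
  have RD : R ≤ N_(⁅X, R⁆) := right_le_norm_comm _ _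
  generalize ⁅X, R⁆ = D at DX DR RD
  have DH := DX.trans hX
  have pD := pg_le pX DX
  by_contra D0
  have key : ∀ s : ℕ, s.Prime → piCoreOf {s} H ≤ C_(D) := fun s sp => by
    by_cases O0 : piCoreOf {s} H = ⊥
    · rw [O0]; exact bot_le
    have sq : s ≠ q := fun e => O0 (e ▸ h0)
    have pO := pcore_pg sp H
    have OH := pcore_le {s} H
    have HO := le_norm_pcore {s} H
    have RO := norm_pcore {s} h.nG
    generalize piCoreOf {s} H = O at O0 pO OH HO RO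
    have VO : ⁅O, D⁆ ≤ O := comm_le_left (DH.trans HO)
    have dj : O ⊓ Syl q R H = ⊥ := BG.inf_eq_bot_of_coprime (pg_coprime_ne sp hq pO (h.syl_pg hq) sq)
    have DP : D ≤ Syl q R H := le_syl DH pD RD
    have := gls Γ s q r ⁅O, D⁆ D R D sp hq h.rp sq (h.ne_r sp OH pO O0) (h.ne_r hq DH pD D0) (pg_le pO VO) pD cR (norm_comm RO RD) RD
      (right_le_norm_comm _ _) DR (fun e => h.two DH (e ▸ pD))
      (coprime_comm_comm (DH.trans HO) (pg_coprime_ne hq sp pD pO sq.symm) (.inl (pg_sol hq pD))) RD le_rfl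
      (le_sup_of_le_right (le_inf inf_le_left (comm_eq_bot.1 (eq_bot_mono dj (le_inf
        ((comm_mono (inf_le_left.trans VO) le_rfl).trans VO)
        ((comm_mono le_rfl DP).trans (comm_le_right ((inf_le_inf_right _ (VO.trans OH)).trans (h.c_n hq)))))))))
    exact comm_eq_bot.1 (eq_bot_mono dj (le_inf VO (this.trans DP)))
  have h1 : fittingOf H ≤ C_(D) := nil_le_of_pcores (fit_nil H) fun p hp _ => (pcore_fit hp H).le.trans (key p hp)
  exact D0 (eq_bot_mono h0 (le_pcore_of_le_fit ((isPi_singleton hq).2 pD) ((le_inf DH (cent_symm h1)).trans (fit_cent_le hs))))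

theorem r1top (h : St r R H) (cR : Nat.card R = r) (hs : Group.IsSolvable H) (hq : q.Prime) (hX : X ≤ H) (pX : IsPGroup q X)
    (nX : R ≤ N_(X)) (top : H ⊔ R = ⊤) : ⁅X, R⁆ ≤ piCoreOf {q} H := by
  have nM : (piCoreOf {q} H).Normal := normal_of (top ▸ sup_le (le_norm_pcore _ H) (norm_pcore _ h.nG))
  have kf : (QuotientGroup.mk' (piCoreOf {q} H)).ker = piCoreOf {q} H := QuotientGroup.ker_mk' _
  have sj := QuotientGroup.mk'_surjective (piCoreOf {q} H)
  generalize QuotientGroup.mk' (piCoreOf {q} H) = f at kf sj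
  have pk : IsPGroup q f.ker := pg_le (pcore_pg hq H) kf.le
  have := r1base (h.map f) (card_map_prime h.rp cR f fun e => h.rG (cR ▸ card_dvd ((((Subgroup.map_eq_bot_iff _).1 e).trans kf.le).trans (pcore_le _ _))))
    (solvable_of_surjective (f.subgroupMap_surjective H)) hq (map_mono hX) (pX.map f) (map_norm nX f) (by
      have k : (piCoreOf {q} (H.map f)).comap f ≤ f.ker := le_trans (le_pcore_pg hq
        ((pcore_pg hq _).comap_of_ker_isPGroup f pk)
        ((comap_mono (pcore_le _ _)).trans (by rw [comap_map_eq, kf]; exact sup_le le_rfl (pcore_le _ _)))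
        ((map_le_iff_le_comap.1 (le_norm_pcore _ _)).trans (le_normalizer_comap f))) kf.ge
      rw [← map_comap_eq_self_of_surjective sj (piCoreOf {q} (H.map f))]
      exact (Subgroup.map_eq_bot_iff _).2 k)
  rwa [← map_commutator, Subgroup.map_eq_bot_iff, kf] at this

theorem r1 : R1S.{u} := by
  intro Γ _ _ r q R H X h cR hs hq hX pX nX
  have h1 : H ≤ H ⊔ R := le_sup_left
  have h2 : R ≤ H ⊔ R := le_sup_right
  generalize hL : H ⊔ R = L at h1 h2
  have := map_mono (f := L.subtype) (r1top (h.sgo h2 h1) ((sub_card h2).trans cR)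
    (solvable_of_solvable_injective (f := (subgroupOfEquivOfLe h1).toMonoidHom) (subgroupOfEquivOfLe h1).injective) hq (comap_mono hX)
    pX.comap_subtype (sub_norm L nX) (map_injective L.subtype_injective (by
      rw [Subgroup.map_sup, mp h1, mp h2, hL, ← MonoidHom.range_eq_map, range_subtype])))
  rw [map_commutator, mp h2] at this
  erw [mp (hX.trans h1)] at this
  refine this.trans (le_pcore_pg hq ((pcore_pg hq _).map _) ((map_mono (pcore_le _ _)).trans (mp h1).le) ?_)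
  exact (mp h1).ge.trans (map_norm (le_norm_pcore _ _) _)

end H25.Pt
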