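import Cfsg.Agent.H06.PT1
import Cfsg.Agent.S0205

/-!
# Part H of the S1917 cluster (helper25): the statement from `AllS`
-/

set_option autoImplicit false
open Cfsg BG Subgroup
universe u
namespace H25.Pt
open Cfsg.Agent.H06.PT

theorem s1917 (h : AllS.{u}) {G : Type u} [Group G] [Finite G] (A : Subgroup (MulAut G)) {r : ℕ} [Fact r.Prime]
    (hA : Cfsg.IsElementaryAbelian r A) (hcop : (Nat.card A).Coprime (Nat.card G))
    (huniq : ∀ p : ℕ, p.Prime → p ∣ Nat.card G →
      ∃! P : Sylow p G, ∀ φ ∈ A, (P : Subgroup G).map (MulEquiv.toMonoidHom φ) = P)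
    (hodd : Odd (Nat.card {g : G // ∀ φ ∈ A, φ g = g})) :
    Group.IsSolvable G := by
  have hr : r.Prime := Fact.out
  by_cases A0 : A = ⊥
  · refine Agent.S0205.result ?_
    rwa [Nat.card_congr (Equiv.subtypeUnivEquiv fun g φ hφ => by rw [A0] at hφ; rw [mem_bot.1 hφ]; rfl)] at hodd
  let Γ := G ⋊[MonoidHom.id (MulAut G)] MulAut G
  have : Finite Γ := Finite.of_equiv _ SemidirectProduct.equivProd.symm
  let ι : G →* Γ := SemidirectProduct.inl
  let κ : MulAut G →* Γ := SemidirectProduct.inr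
  have hi : Function.Injective ι := SemidirectProduct.inl_injective
  have hk : Function.Injective κ := SemidirectProduct.inr_injective
  have cj : ∀ a x, κ a * ι x * (κ a)⁻¹ = ι (a x) := fun a x => by
    rw [← map_inv]; exact (SemidirectProduct.inl_aut (φ := MonoidHom.id (MulAut G)) a x).symm
  clear_value ι κ
  have cG : Nat.card ι.range = Nat.card G := (Nat.card_congr (MonoidHom.ofInjective hi).toEquiv).symm
  have cA : Nat.card (A.map κ) = Nat.card A := card_map_of_injective hk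
  have nG : A.map κ ≤ N_(ι.range) := le_norm_iff.2 (by
    rintro _ ⟨a, -, rfl⟩ _ ⟨x, rfl⟩
    exact ⟨_, (cj a x).symm⟩)
  have ea : IsElementaryAbelian r (A.map κ) := ⟨by haveI := hA.1; infer_instance, by
    rintro _ ⟨a, ha, rfl⟩; rw [← map_pow, hA.2 a ha, map_one]⟩
  have key : ∀ (q : ℕ) (P : Subgroup Γ), q.Prime → IsSylowIn q P ι.range → A.map κ ≤ N_(P) →
      ∃ S : Sylow q G, (∀ φ ∈ A, (S : Subgroup G).map (MulEquiv.toMonoidHom φ) = S) ∧ (S : Subgroup G).map ι = P := fun q P hq hP nP => by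
    obtain ⟨S, hS⟩ := (isSylowIn_mk (X := P.comap ι) (H := ⊤) hq le_top ((hP.pg hq).comap_of_injective ι hi)
      (by rw [relIndex_top_right, index_comap]; exact hP.not_dvd' hq)).exists_sylow_top hq
    have st : ∀ φ ∈ A, ∀ x ∈ P.comap ι, φ x ∈ P.comap ι := fun φ hφ x hx => by
      rw [mem_comap, ← cj]; exact conj_mem_of_norm (nP (mem_map_of_mem κ hφ)) hx
    refine ⟨S, fun φ hφ => ?_, by rw [hS, map_comap_eq_self hP.le]⟩
    rw [hS]
    refine le_antisymm ?_ fun y hy => ⟨φ⁻¹ y, st _ (A.inv_mem hφ) y hy, φ.apply_symm_apply y⟩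
    rintro _ ⟨x, hx, rfl⟩
    exact st φ hφ x hx
  have := h Γ r (A.map κ) ι.range ⟨hr, ea, nG, cG ▸ fun k => hr.one_lt.ne' (Nat.eq_one_of_dvd_coprimes hcop (pg_dvd hr hA.pg A0) k),
    fun q X Y hq hX hY pX pY nX nY => ?_, ?_⟩
  · exact solvable_of_solvable_injective (f := (MonoidHom.ofInjective hi).toMonoidHom) (MonoidHom.ofInjective hi).injective
  · by_cases k : q ∣ Nat.card G
    · have cop : (Nat.card (A.map κ)).Coprime (Nat.card ι.range) := by rwa [cA, cG]
      obtain ⟨P, p1, p2, p3⟩ := coprime_sylow_superset hq (.inl (sol_of_abelian ea.1)) nG cop pX hX nX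
      obtain ⟨Q, q1, q2, q3⟩ := coprime_sylow_superset hq (.inl (sol_of_abelian ea.1)) nG cop pY hY nY
      obtain ⟨S, s1, rfl⟩ := key q P hq p1 p2
      obtain ⟨T, t1, rfl⟩ := key q Q hq q1 q2
      obtain rfl := (huniq q hq k).unique s1 t1
      exact pg_le (p1.pg hq) (sup_le p3 q3)
    · rw [← cG] at k
      rw [pg_eq_bot hq pX (not_dvd_of_le k hX), bot_sup_eq]; exact pY
  · rw [← map_comap_eq, card_map_of_injective hi, Nat.card_congr (Equiv.subtypeEquivRight (q := fun g => ∀ φ ∈ A, φ g = g) fun g => ?_)]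
    · exact hodd.not_two_dvd_nat
    · rw [mem_comap, mem_cent]
      refine ⟨fun k φ hφ => hi (by rw [← cj, k _ (mem_map_of_mem κ hφ), mul_inv_cancel_right]), fun k => ?_⟩
      rintro _ ⟨φ, hφ, rfl⟩
      rw [← mul_inv_eq_iff_eq_mul, cj, k φ hφ]

end H25.Pt
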